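import Cfsg.Agent.H864.RC.Def3
import Cfsg.Agent.H579.RC.KL

/-!
# S3510, triality type iii: the group theoretic tools (helper253)

`T3.mv`, `T3.ir`, `T3.kl_lin`, `T3.cauchy` of tools/plans/S3510_tri3_stubs.lean.txt.
-/

set_option autoImplicit false
open Cfsg

namespace Cfsg.Agent.H864.RC

open Module QuadraticMap MulAction
open Cfsg.Agent.LieClassical.OrthCore Cfsg.Agent.LieClassical.OrthTrans
open Cfsg.Agent.LieClassical.OrthSimple Cfsg.Agent.ClassicalGeometry.OrthSemi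
open Cfsg.Agent.ClassicalGeometry.OrthAut1 Cfsg.Agent.H106.RC Cfsg.Agent.H93.RC Cfsg.Agent.H566.RC
open Cfsg.Agent.LieClassical.QuadForms Cfsg.Agent.ClassicalGeometry.TrialityOct
open Cfsg.Agent.ClassicalGeometry.Triality Cfsg.Agent.ClassicalGeometry.TrialitySpaces
open Cfsg.Agent.H198.TriBase Cfsg.Agent.H198.TriAut Cfsg.Agent.H206.Balance Cfsg.Agent.H198.TriDia

/-! ### the commutator group -/

section grp

variable {G : Type} [Group G] {C : Subgroup G} {x : G}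

theorem comC_le (hx : ∀ c ∈ C, x * c * x⁻¹ ∈ C) : comC C x ≤ C := by
  rw [comC, Subgroup.closure_le]
  rintro _ ⟨c, hc, rfl⟩
  have h : c * x * c⁻¹ * x⁻¹ = c * (x * c⁻¹ * x⁻¹) := by group
  rw [h]
  exact C.mul_mem hc (hx _ (C.inv_mem hc))

theorem cm_mem_comC {c : G} (hc : c ∈ C) : c * x * c⁻¹ * x⁻¹ ∈ comC C x := Subgroup.subset_closure ⟨c, hc, rfl⟩

theorem conj_mem_comC {c d : G} (hc : c ∈ C) (hd : d ∈ comC C x) : c * d * c⁻¹ ∈ comC C x := by
  have h : (comC C x).map (MulAut.conj c).toMonoidHom ≤ comC C x := by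
    rw [comC, MonoidHom.map_closure, Subgroup.closure_le]
    rintro _ ⟨_, ⟨b, hb, rfl⟩, rfl⟩
    have h1 : (MulAut.conj c).toMonoidHom (b * x * b⁻¹ * x⁻¹) =
        ((c * b) * x * (c * b)⁻¹ * x⁻¹) * (c * x * c⁻¹ * x⁻¹)⁻¹ := by
      change c * (b * x * b⁻¹ * x⁻¹) * c⁻¹ = _
      group
    rw [h1]
    exact Subgroup.mul_mem _ (cm_mem_comC (C.mul_mem hc hb)) (Subgroup.inv_mem _ (cm_mem_comC hc))
  exact h ⟨d, hd, rfl⟩

theorem conj_mem_comC' (hx : ∀ c ∈ C, x * c * x⁻¹ ∈ C) {d : G} (hd : d ∈ comC C x) : x * d * x⁻¹ ∈ comC C x := by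
  have h : (comC C x).map (MulAut.conj x).toMonoidHom ≤ comC C x := by
    rw [comC, MonoidHom.map_closure, Subgroup.closure_le]
    rintro _ ⟨_, ⟨b, hb, rfl⟩, rfl⟩
    have h1 : (MulAut.conj x).toMonoidHom (b * x * b⁻¹ * x⁻¹) =
        (x * b * x⁻¹) * x * (x * b * x⁻¹)⁻¹ * x⁻¹ := by
      change x * (b * x * b⁻¹ * x⁻¹) * x⁻¹ = _
      group
    rw [h1]
    exact cm_mem_comC (hx b hb)
  exact h ⟨d, hd, rfl⟩

end grp

variable {F : Type} [Field F]

section env

variable {G Ω ι : Type} [Group G] [MulAction G Ω] {N : Subgroup G} {hG : Good (plusForm 4 F)}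
  {κ : P8 F →* G} {s : F ≃+* F} {x₁ : G} {x : ι → G} {r : ι → ℕ} {g : ι → (V8 F ≃ₗ[F] V8 F)}

theorem mem_CN {N : Subgroup G} {x : ι → G} {c : G} : c ∈ CN N x ↔ c ∈ N ∧ ∀ i, c * x i = x i * c := by
  rw [CN, Subgroup.mem_inf, Subgroup.mem_centralizer_iff]
  constructor
  · rintro ⟨h1, h2⟩
    exact ⟨h1, fun i => (h2 _ ⟨i, rfl⟩).symm⟩
  · rintro ⟨h1, h2⟩
    refine ⟨h1, ?_⟩
    rintro _ ⟨i, rfl⟩
    exact (h2 i).symm

theorem T3.conj_CN (h : T3 hG N κ s Ω x₁ x r g) : ∀ c ∈ CN N x, x₁ * c * x₁⁻¹ ∈ CN N x := by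
  intro c hc
  rw [mem_CN] at hc ⊢
  refine ⟨h.env.norm.conj_mem _ hc.1 _, fun i => ?_⟩
  have e1 := h.x1_comm i
  have e2 : x₁⁻¹ * x i = x i * x₁⁻¹ := by rw [inv_mul_eq_iff_eq_mul, ← mul_assoc, e1, mul_inv_cancel_right]
  calc x₁ * c * x₁⁻¹ * x i = x₁ * c * (x₁⁻¹ * x i) := by group
    _ = x₁ * (c * x i) * x₁⁻¹ := by rw [e2]; group
    _ = (x₁ * x i) * c * x₁⁻¹ := by rw [hc.2 i]; group
    _ = x i * (x₁ * c * x₁⁻¹) := by rw [e1]; group

theorem T3.comC_le_CN (h : T3 hG N κ s Ω x₁ x r g) : comC (CN N x) x₁ ≤ CN N x := comC_le h.conj_CN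

/-- (IR): every element of `[C, x₁]` may replace `x₁`; hence its prime divisors are among the `r i` -/
theorem T3.mv (h : T3 hG N κ s Ω x₁ x r g) {y : G} (hy : y ∈ comC (CN N x) x₁) :
    ∀ ω : Ω, y • ω = ω ∨ ∃ i, x i • ω = ω := by
  classical
  let X : Option ι → G := fun o => o.elim x₁ x
  have hcov : Cov Ω X := fun ω => by
    rcases h.cov ω with h1 | ⟨i, h1⟩
    · exact ⟨none, h1⟩
    · exact ⟨some i, h1⟩
  have hy' : y ∈ Subgroup.closure {z | ∃ c : G, (∀ j, j ≠ none → c * X j = X j * c) ∧ z = c * X none * c⁻¹} := by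
    have hle : comC (CN N x) x₁ ≤
        Subgroup.closure {z | ∃ c : G, (∀ j, j ≠ none → c * X j = X j * c) ∧ z = c * X none * c⁻¹} := by
      rw [comC, Subgroup.closure_le]
      rintro _ ⟨c, hc, rfl⟩
      apply Subgroup.mul_mem
      · refine Subgroup.subset_closure ⟨c, ?_, rfl⟩
        rintro (_ | i) hj
        · exact (hj rfl).elim
        · exact (mem_CN.1 hc).2 i
      · apply Subgroup.inv_mem
        exact Subgroup.subset_closure ⟨1, fun j _ => by rw [one_mul, mul_one], by simp [X]⟩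
    exact hle hy
  have h2 := hcov.mv none hy'
  intro ω
  obtain ⟨o, ho⟩ := h2 ω
  rcases o with _ | i
  · left
    rwa [Function.update_self] at ho
  · right
    rw [Function.update_of_ne (by simp)] at ho
    exact ⟨i, ho⟩

theorem T3.ir [Finite G] [Finite ι] (h : T3 hG N κ s Ω x₁ x r g) (hN : NoN Ω N) {l : ℕ} (hl : l.Prime)
    (hlr : ∀ i, r i ≠ l) : ¬ l ∣ Nat.card (comC (CN N x) x₁) := by
  intro hd
  have := Fact.mk hl
  obtain ⟨y, hy⟩ := exists_prime_orderOf_dvd_card' l hd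
  have hyC := mem_CN.1 (h.comC_le_CN y.2)
  have hyl : (y : G) ^ l = 1 := by
    have h2 := pow_orderOf_eq_one y
    rw [hy] at h2
    exact congrArg Subtype.val h2
  have hy1 : (y : G) ≠ 1 := by
    intro h2
    have h3 : y = 1 := Subtype.ext h2
    rw [h3, orderOf_one] at hy
    exact hl.one_lt.ne hy
  let Y : Option ι → G := fun o => o.elim (y : G) x
  let T : Option ι → ℕ := fun o => o.elim l r
  have hpf : PF Y T := by
    refine ⟨?_, ?_, ?_, ?_, ?_⟩
    · rintro (_ | i)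
      · exact hl
      · exact h.prime i
    · rintro (_ | i) (_ | j) hij
      · rfl
      · exact (hlr j hij.symm).elim
      · exact (hlr i hij).elim
      · exact congrArg some (h.inj hij)
    · rintro (_ | i)
      · exact hyl
      · exact h.x_pow i
    · rintro (_ | i)
      · exact hy1
      · exact h.x_ne i
    · rintro (_ | i) (_ | j)
      · rfl
      · exact hyC.2 j
      · exact (hyC.2 i).symm
      · exact h.x_comm i j
  refine hN (Option ι) Y T hpf ?_ ?_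
  · intro ω
    rcases h.mv y.2 ω with h1 | ⟨i, h1⟩
    · exact ⟨none, h1⟩
    · exact ⟨some i, h1⟩
  · rintro (_ | i)
    · exact hyC.1
    · exact h.x_mem i

/-! ### lifting -/

theorem pow_of_smul {f k : V8 F ≃ₗ[F] V8 F} {e : F} (h : ∀ v, f v = e • k v) (n : ℕ) (v : V8 F) :
    (f ^ n) v = e ^ n • (k ^ n) v := by
  induction n generalizing v with
  | zero => rw [pow_zero, pow_zero, pow_zero, one_smul]
  | succ n ih =>
    rw [pow_succ, pow_succ, LinearEquiv.mul_apply, ih, h, map_smul, smul_smul, pow_succ, LinearEquiv.mul_apply]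

/-- `ε ² = 1`, `ε ^ n = 1`, `n` odd -/
theorem eq_one_of_odd {e : F} (h : e * e = 1) {n : ℕ} (hn : Odd n) (h1 : e ^ n = 1) : e = 1 := by
  obtain ⟨m, rfl⟩ := hn
  rw [pow_succ, pow_mul, pow_two, h, one_pow, one_mul] at h1
  exact h1

/-- the lift in `E Q` of an element of `N` -/
theorem T3.exists_up (h : T3 hG N κ s Ω x₁ x r g) {y : G} (hy : y ∈ N) : ∃ c : ↥(E (plusForm 4 F)), up κ c = y := by
  rw [← h.rp.range] at hy
  obtain ⟨a, rfl⟩ := hy
  obtain ⟨c, rfl⟩ := QuotientGroup.mk_surjective a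
  exact ⟨c, rfl⟩

theorem T3.up_mem (h : T3 hG N κ s Ω x₁ x r g) (c : ↥(E (plusForm 4 F))) : up κ c ∈ N := by
  have : up κ c ∈ κ.range := ⟨_, rfl⟩
  rwa [h.rp.range] at this

theorem T3.up_eq (h : T3 hG N κ s Ω x₁ x r g) {c d : ↥(E (plusForm 4 F))} (e : up κ c = up κ d) :
    (c : P8 F) = (d : P8 F) := h.rp.inj e

theorem T3.up_mem_CN (h : T3 hG N κ s Ω x₁ x r g) {c : ↥(E (plusForm 4 F))}
    (hc : ∀ i, (c : V8 F ≃ₗ[F] V8 F) * g i = g i * c) : up κ c ∈ CN N x := by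
  rw [mem_CN]
  refine ⟨h.up_mem c, fun i => ?_⟩
  rw [h.x_eq, ← map_mul, ← map_mul]
  congr 1
  exact Subtype.ext (hc i)

/-- (KLlin): an `l`-subgroup of `E Q` commuting with all `g i` has a conjugate in `AutD`, if `l` does not divide
`|[C, x₁]|` (in particular if `l` is not one of the `r i`) -/
theorem T3.kl_lin [Finite F] [Finite G] [Finite ι] (h : T3 hG N κ s Ω x₁ x r g) (hN : NoN Ω N) {l : ℕ}
    (hl : l.Prime) (hlD : ¬ l ∣ Nat.card (comC (CN N x) x₁)) (h2 : l = 2 → (2 : F) = 0)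
    (A : Subgroup (V8 F ≃ₗ[F] V8 F)) (hA : IsPGroup l A) (hAE : A ≤ E (plusForm 4 F))
    (hAc : ∀ a ∈ A, ∀ i, a * g i = g i * a) :
    ∃ d ∈ E (plusForm 4 F), ∀ a ∈ A, d * a * d⁻¹ ∈ AutD (fG s) := by
  have := Fact.mk hl
  have : Fact (Nat.Prime 3) := ⟨Nat.prime_three⟩
  let P : Subgroup G := (A.subgroupOf (E (plusForm 4 F))).map (up κ)
  have hP : IsPGroup l P := (hA.comap_subtype).map (up κ)
  have hPC : P ≤ CN N x := by
    rintro _ ⟨a, ha, rfl⟩
    exact h.up_mem_CN (hAc a ha)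
  obtain ⟨d, hd, hcm⟩ := H579.RC.kl (t := 3) (l := l) (D := comC (CN N x) x₁) (P := P) (x := x₁) (k := 1)
    (by rw [pow_one]; exact h.x1_cube) (fun d hd => conj_mem_comC' h.conj_CN hd)
    (fun p hp d hd => conj_mem_comC (hPC hp) hd) (fun p hp => cm_mem_comC (hPC hp)) hP
    (h.ir hN Nat.prime_three h.three) hlD
  obtain ⟨d0, hd0⟩ := h.exists_up (mem_CN.1 (h.comC_le_CN hd)).1
  refine ⟨d0, d0.2, fun a ha => ?_⟩
  let a' : ↥(E (plusForm 4 F)) := ⟨a, hAE ha⟩
  have h3 := hcm (up κ a') ⟨a', ha, rfl⟩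
  have h4 : x₁ * up κ (d0 * a' * d0⁻¹) = up κ (d0 * a' * d0⁻¹) * x₁ := by
    rw [map_mul, map_mul, map_inv, hd0]
    calc x₁ * (d * up κ a' * d⁻¹) = d * (d⁻¹ * x₁ * d * up κ a') * d⁻¹ := by group
      _ = d * (up κ a' * (d⁻¹ * x₁ * d)) * d⁻¹ := by rw [h3]
      _ = d * up κ a' * d⁻¹ * x₁ := by group
  obtain ⟨c', hc', hcD⟩ := h.mem_of_comm _ h4
  obtain ⟨e, he, hev⟩ := sign_of_mk_eq hG hc'
  have he1 : e = 1 := by
    by_cases h20 : (2 : F) = 0
    · have : (e - 1) * (e - 1) = 0 := by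
        have : (e - 1) * (e - 1) = e * e - 2 * e + 1 := by ring
        rw [this, he, h20, zero_mul, sub_zero]
        linear_combination h20
      exact sub_eq_zero.1 (mul_self_eq_zero.1 this)
    · have hlodd : Odd l := hl.odd_of_ne_two fun h5 => h20 (h2 h5)
      obtain ⟨k, hk⟩ := hA ⟨a, ha⟩
      have hk' : a ^ l ^ k = 1 := congrArg Subtype.val hk
      have e1 : (d0 * a' * d0⁻¹) ^ l ^ k = 1 := by
        rw [conj_pow]
        have : a' ^ l ^ k = 1 := Subtype.ext hk'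
        rw [this, mul_one, mul_inv_cancel]
      have e2 : ((c' ^ l ^ k : ↥(E (plusForm 4 F))) : P8 F) = ((1 : ↥(E (plusForm 4 F))) : P8 F) := by
        rw [← e1]
        have : ((c' : P8 F)) ^ l ^ k = ((d0 * a' * d0⁻¹ : ↥(E (plusForm 4 F))) : P8 F) ^ l ^ k := by rw [hc']
        exact this
      have e3 : c' ^ l ^ k = 1 := AutD_unique hG (τ := fG s) (by
        rw [Subgroup.coe_pow]
        exact (AutD (fG s)).pow_mem hcD _) ((AutD (fG s)).one_mem) e2
      have e4 := pow_of_smul hev (l ^ k) (one8 F)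
      have e5 : (((d0 * a' * d0⁻¹ : ↥(E (plusForm 4 F))) : V8 F ≃ₗ[F] V8 F) ^ l ^ k) = 1 :=
        congrArg Subtype.val e1
      have e6 : ((c' : V8 F ≃ₗ[F] V8 F) ^ l ^ k) = 1 := congrArg Subtype.val e3
      rw [e5, e6] at e4
      have e7 : one8 F = e ^ l ^ k • one8 F := e4
      have e8 : (1 - e ^ l ^ k) • one8 F = 0 := by rw [sub_smul, one_smul, ← e7, sub_self]
      have e9 : one8 F ≠ 0 := fun h0 => by
        have h6 := norm_one8 (F := F)
        rw [h0, QuadraticMap.map_zero] at h6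
        exact zero_ne_one h6
      have e10 := (smul_eq_zero.1 e8).resolve_right e9
      exact eq_one_of_odd he (hlodd.pow) (sub_eq_zero.1 e10).symm
  have h5 : (d0 : V8 F ≃ₗ[F] V8 F) * a * (d0 : V8 F ≃ₗ[F] V8 F)⁻¹ = c' := by
    apply LinearEquiv.ext
    intro v
    have := hev v
    rw [he1, one_smul] at this
    exact this
  rw [h5]
  exact hcD

/-- Cauchy in `[C, x₁]`: an odd prime divisor gives an element of `E Q` commuting with the `g i` -/
theorem T3.cauchy [Finite F] [Finite G] [Finite ι] (h : T3 hG N κ s Ω x₁ x r g) {l : ℕ}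
    (hl : l.Prime) (hl2 : l ≠ 2) (hlD : l ∣ Nat.card (comC (CN N x) x₁)) :
    ∃ c : ↥(E (plusForm 4 F)), (c : V8 F ≃ₗ[F] V8 F) ^ l = 1 ∧ (c : V8 F ≃ₗ[F] V8 F) ≠ 1 ∧
      (∀ i, (c : V8 F ≃ₗ[F] V8 F) * g i = g i * c) ∧ up κ c ∈ comC (CN N x) x₁ := by
  have := Fact.mk hl
  have hlodd : Odd l := hl.odd_of_ne_two hl2
  obtain ⟨y, hy⟩ := exists_prime_orderOf_dvd_card' l hlD
  have hyC := mem_CN.1 (h.comC_le_CN y.2)
  have hyl : (y : G) ^ l = 1 := by
    have h2 := pow_orderOf_eq_one y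
    rw [hy] at h2
    exact congrArg Subtype.val h2
  have hy1 : (y : G) ≠ 1 := by
    intro h2
    have h3 : y = 1 := Subtype.ext h2
    rw [h3, orderOf_one] at hy
    exact hl.one_lt.ne hy
  obtain ⟨c0, hc0⟩ := h.exists_up hyC.1
  -- the central element `c0 ^ l`
  set z := c0 ^ l with hz
  have hz1 : ((z : ↥(E (plusForm 4 F))) : P8 F) = ((1 : ↥(E (plusForm 4 F))) : P8 F) := by
    apply h.up_eq
    rw [hz, map_pow, hc0, hyl, map_one]
  obtain ⟨e, he, hev⟩ := sign_of_mk_eq hG hz1.symm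
  have hzz : z * z = 1 := by
    apply Subtype.ext
    apply LinearEquiv.ext
    intro v
    change (z : V8 F ≃ₗ[F] V8 F) ((z : V8 F ≃ₗ[F] V8 F) v) = v
    rw [hev, hev]
    change e • e • v = v
    rw [smul_smul, he, one_smul]
  have hzc : z * c0 = c0 * z := by rw [hz, ← pow_succ, ← pow_succ']
  have hupz : up κ z = 1 := by
    rw [hz, map_pow, hc0, hyl]
  have hup : up κ (c0 * z) = y := by rw [map_mul, hupz, mul_one, hc0]
  have hcl : (c0 * z) ^ l = 1 := by
    rw [(show Commute c0 z from hzc.symm).mul_pow, ← hz]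
    obtain ⟨m, hm⟩ := hlodd
    rw [hm, pow_succ, pow_mul, pow_two, hzz, one_pow, one_mul, hzz]
  refine ⟨c0 * z, congrArg Subtype.val hcl, ?_, ?_, by rw [hup]; exact y.2⟩
  · intro h1
    apply hy1
    rw [← hup]
    have : c0 * z = 1 := Subtype.ext h1
    rw [this, map_one]
  · intro i
    set c := c0 * z with hcdef
    let g' : ↥(E (plusForm 4 F)) := ⟨g i, (h.mem i).1⟩
    have h1 : ((g' * c : ↥(E (plusForm 4 F))) : P8 F) = ((c * g' : ↥(E (plusForm 4 F))) : P8 F) := by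
      apply h.up_eq
      have h2 := hyC.2 i
      rw [h.x_eq] at h2
      rw [map_mul (up κ) g' c, map_mul (up κ) c g', hup]
      exact h2.symm
    obtain ⟨e', he', hev'⟩ := sign_of_mk_eq hG h1
    -- `c g' c⁻¹ = e' g'`
    have h3 : ∀ (n : ℕ) (v : V8 F), ((c : V8 F ≃ₗ[F] V8 F) ^ n) (g i v) = e' ^ n • g i (((c : V8 F ≃ₗ[F] V8 F) ^ n) v) := by
      intro n
      induction n with
      | zero => intro v; rw [pow_zero, pow_zero, one_smul]; rfl
      | succ n ih =>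
        intro v
        have h4 : ∀ w, (c : V8 F ≃ₗ[F] V8 F) (g i w) = e' • g i ((c : V8 F ≃ₗ[F] V8 F) w) := hev'
        rw [pow_succ, LinearEquiv.mul_apply, h4, map_smul, ih, smul_smul, pow_succ', LinearEquiv.mul_apply]
    have h5 := h3 l ((g i).symm (one8 F))
    have h6 : ((c : V8 F ≃ₗ[F] V8 F) ^ l) = 1 := congrArg Subtype.val hcl
    rw [h6] at h5
    have h7 : one8 F = e' ^ l • one8 F := by
      have h8 : g i ((g i).symm (one8 F)) = e' ^ l • g i ((g i).symm (one8 F)) := h5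
      rwa [LinearEquiv.apply_symm_apply] at h8
    have e8 : (1 - e' ^ l) • one8 F = 0 := by rw [sub_smul, one_smul, ← h7, sub_self]
    have e9 : one8 F ≠ 0 := fun h0 => by
      have h6 := norm_one8 (F := F)
      rw [h0, QuadraticMap.map_zero] at h6
      exact zero_ne_one h6
    have e10 := (smul_eq_zero.1 e8).resolve_right e9
    have he1 : e' = 1 := eq_one_of_odd he' hlodd (sub_eq_zero.1 e10).symm
    apply LinearEquiv.ext
    intro v
    have h9 := hev' v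
    rw [he1, one_smul] at h9
    exact h9

end env

end Cfsg.Agent.H864.RC
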