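import Cfsg.Agent.H202.RC.Point
import Cfsg.Agent.H338.RC.ExtM

/-!
# S3510, row A, box C: `V = W ⊕ W'` invariant, `M = SL(W)` (helper253)

M-rule for `M = κ(SL(W) ⊕ 1)`: every point fixed by no `x j` centralising `M` is fixed by `M`.  Rule T2 for the
family of these `x j`, `Q = κ(Hom(V/⟨v⟩, ⟨v⟩))`, `v ∈ W`, and the character `φ ↦ ψ(φ(w + w'))` with `w ∈ W`, `w ∉ ⟨v⟩`
and `w' ∈ W'` moved (projectively) by all these `a j`.
-/

set_option autoImplicit false
open Cfsg

namespace Cfsg.Agent.H253.RC.NoSum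

open MulAction Cfsg.Agent.H106.RC Module Cfsg.Agent.H359.RC Cfsg.Agent.H202.RC Cfsg.Agent.H338.RC
open scoped commutatorElement

/-! ### a vector moved by all -/

theorem exists_vec {X ι : Type*} [AddCommGroup X] [Finite X] [Finite ι] {p n : ℕ} (hp : p.Prime)
    (hX : Nat.card X = p ^ n) (b : ι → X ≃+ X) (r : ι → ℕ) (hr : ∀ i, (r i).Prime) (hinj : Function.Injective r)
    (hc : ∀ i j w, b i (b j w) = b j (b i w)) (hpow : ∀ i w, (b i)^[r i] w = w) (hne : ∀ i, ∃ w, b i w ≠ w) :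
    ∃ w, ∀ i, b i w ≠ w := by
  classical
  let y : ι → Equiv.Perm X := fun i => (b i).toEquiv
  let α : ι → MulAut (Multiplicative X) := fun i => AddEquiv.toMultiplicative (b i)
  have hy : ∀ i w, y i w = b i w := fun _ _ => rfl
  have hα : ∀ i (w : Multiplicative X), (α i w) = Multiplicative.ofAdd (b i w.toAdd) := fun _ _ => rfl
  have hypow : ∀ i (m : ℕ) w, (y i ^ m) w = (b i)^[m] w := by
    intro i m
    induction m with
    | zero => intro w; rfl
    | succ m ih => intro w; rw [pow_succ, Equiv.Perm.mul_apply, ih, hy, Function.iterate_succ_apply]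
  have hαpow : ∀ i (m : ℕ) (w : Multiplicative X), (α i ^ m) w = Multiplicative.ofAdd ((b i)^[m] w.toAdd) := by
    intro i m
    induction m with
    | zero => intro w; rfl
    | succ m ih => intro w; rw [pow_succ, MulAut.mul_apply, ih, hα, Function.iterate_succ_apply]; rfl
  have hN : Nrm y α r := by
    refine ⟨hr, ?_, ?_, ?_, ?_, ?_⟩
    · intro i j d
      rw [hy, hy, hy, hy, hc]
    · intro i j u
      rw [hα, hα, hα, hα]
      exact congrArg Multiplicative.ofAdd (hc i j u.toAdd)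
    · intro i u d
      change b i (u.toAdd + d) = b i u.toAdd + b i d
      exact map_add _ _ _
    · intro i
      ext d
      rw [hypow, hpow]
      rfl
    · intro i
      ext u
      rw [hαpow, hpow]
      rfl
  have htr : ∀ d d' : X, ∃ u : Multiplicative X, u • d = d' := by
    intro d d'
    refine ⟨Multiplicative.ofAdd (d' - d), ?_⟩
    change (d' - d) + d = d'
    exact sub_add_cancel _ _
  have hcard : ∀ i, ¬ (r i).Coprime (Nat.card (Multiplicative X)) → r i = p := by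
    intro i hi
    by_contra hne
    apply hi
    have h1 : Nat.card (Multiplicative X) = p ^ n := hX
    rw [h1]
    exact Nat.Coprime.pow_right _ ((Nat.coprime_primes (hr i) hp).2 hne)
  exact exists_moved hN htr (fun i j hi hj => hinj ((hcard i hi).trans (hcard j hj).symm)) hne

/-! ### restriction and embedding -/

section emb

variable {F V : Type*} [Field F] [AddCommGroup V] [Module F V]

/-- restriction of an automorphism -/
noncomputable def rs [Module.Finite F V] {W : Submodule F V} (f : V ≃ₗ[F] V) (hf : ∀ w ∈ W, f w ∈ W) : W ≃ₗ[F] W :=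
  LinearEquiv.ofInjectiveEndo ((f : V →ₗ[F] V).restrict hf) (by
    intro u v h
    apply Subtype.ext
    apply f.injective
    exact congrArg Subtype.val h)

theorem rs_apply [Module.Finite F V] {W : Submodule F V} (f : V ≃ₗ[F] V) (hf : ∀ w ∈ W, f w ∈ W) (w : W) :
    (rs f hf w : V) = f w := rfl

variable {W W' : Submodule F V}

/-- `s ⊕ 1` -/
noncomputable def em [Module.Finite F V] (hc : IsCompl W W') : SLV F W →* SLV F V where
  toFun s := ⟨(Submodule.prodEquivOfIsCompl W W' hc).symm.trans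
      (((s : W ≃ₗ[F] W).prodCongr (LinearEquiv.refl F W')).trans (Submodule.prodEquivOfIsCompl W W' hc)), by
    rw [mem_SLV]
    have h1 : (((Submodule.prodEquivOfIsCompl W W' hc).symm.trans
      (((s : W ≃ₗ[F] W).prodCongr (LinearEquiv.refl F W')).trans (Submodule.prodEquivOfIsCompl W W' hc)) :
        V ≃ₗ[F] V) : V →ₗ[F] V) = (Submodule.prodEquivOfIsCompl W W' hc : (W × W') →ₗ[F] V) ∘ₗ
        (((s : W ≃ₗ[F] W) : W →ₗ[F] W).prodMap LinearMap.id) ∘ₗ
        ((Submodule.prodEquivOfIsCompl W W' hc).symm : V →ₗ[F] (W × W')) := rfl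
    rw [h1, LinearMap.det_conj, LinearMap.det_prodMap, LinearMap.det_id, mul_one]
    exact mem_SLV.1 s.2⟩
  map_one' := by
    apply SLV.ext
    intro v
    exact (Submodule.prodEquivOfIsCompl W W' hc).apply_symm_apply v
  map_mul' s t := by
    apply SLV.ext
    intro v
    rw [coe_mul_apply]
    change (Submodule.prodEquivOfIsCompl W W' hc) _ = (Submodule.prodEquivOfIsCompl W W' hc)
      (((s : W ≃ₗ[F] W).prodCongr (LinearEquiv.refl F W')) ((Submodule.prodEquivOfIsCompl W W' hc).symm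
        ((Submodule.prodEquivOfIsCompl W W' hc) _)))
    rw [LinearEquiv.symm_apply_apply]
    rfl

theorem em_left [Module.Finite F V] (hc : IsCompl W W') (s : SLV F W) (w : W) :
    (em hc s : V ≃ₗ[F] V) w = ((s : W ≃ₗ[F] W) w : V) := by
  change (Submodule.prodEquivOfIsCompl W W' hc) (((s : W ≃ₗ[F] W).prodCongr (LinearEquiv.refl F W'))
    ((Submodule.prodEquivOfIsCompl W W' hc).symm w)) = _
  rw [Submodule.prodEquivOfIsCompl_symm_apply_left]
  simp

theorem em_right [Module.Finite F V] (hc : IsCompl W W') (s : SLV F W) {w : V} (hw : w ∈ W') :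
    (em hc s : V ≃ₗ[F] V) w = w := by
  change (Submodule.prodEquivOfIsCompl W W' hc) (((s : W ≃ₗ[F] W).prodCongr (LinearEquiv.refl F W'))
    ((Submodule.prodEquivOfIsCompl W W' hc).symm ((⟨w, hw⟩ : W') : V))) = _
  rw [Submodule.prodEquivOfIsCompl_symm_apply_right]
  simp

theorem decomp (hc : IsCompl W W') (v : V) : ∃ (w : W) (w' : W'), v = (w : V) + w' := by
  have h : v ∈ W ⊔ W' := by rw [hc.sup_eq_top]; trivial
  obtain ⟨w, hw, w', hw', h⟩ := Submodule.mem_sup.1 h
  exact ⟨⟨w, hw⟩, ⟨w', hw'⟩, h.symm⟩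

theorem cj_em [Module.Finite F V] (hc : IsCompl W W') (f : V ≃ₗ[F] V) (hf : ∀ w ∈ W, f w ∈ W)
    (hf' : ∀ w ∈ W', f w ∈ W') (s : SLV F W) : cj f (em hc s) = em hc (cj (rs f hf) s) := by
  apply cj_eq
  intro v
  obtain ⟨w, w', rfl⟩ := decomp hc v
  rw [map_add, map_add, map_add, map_add, em_left, em_right hc s w'.2, em_right hc _ (hf' _ w'.2)]
  congr 1
  have h1 : f w = (rs f hf w : V) := rfl
  rw [h1, em_left, cj_apply]
  rfl

/-- a functional separating -/
theorem exists_phi (hc : IsCompl W W') {e f : V} (he : e ∈ W) (hf : f ∈ W)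
    (hne : ¬ ∃ c : F, f = c • e) : ∃ φ : Dual F V, (∀ w ∈ W', φ w = 0) ∧ φ e = 0 ∧ φ f = 1 := by
  have h1 : f ∉ W' ⊔ Submodule.span F {e} := by
    intro h
    obtain ⟨w, hw, u, hu, h⟩ := Submodule.mem_sup.1 h
    obtain ⟨c, rfl⟩ := Submodule.mem_span_singleton.1 hu
    apply hne
    refine ⟨c, ?_⟩
    have h2 : w ∈ W := by
      have : w = f - c • e := by rw [← h]; abel
      rw [this]
      exact W.sub_mem hf (W.smul_mem _ he)
    have h3 : w = 0 := Submodule.disjoint_def.1 hc.disjoint w h2 hw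
    rw [← h, h3, zero_add]
  obtain ⟨φ, h2, h3⟩ := Submodule.exists_le_ker_of_notMem h1
  refine ⟨(φ f)⁻¹ • φ, fun w hw => ?_, ?_, ?_⟩
  · have h4 : φ w = 0 := h3 (Submodule.mem_sup_left hw)
    rw [LinearMap.smul_apply, h4, smul_zero]
  · have h4 : φ e = 0 := h3 (Submodule.mem_sup_right (Submodule.mem_span_singleton_self e))
    rw [LinearMap.smul_apply, h4, smul_zero]
  · rw [LinearMap.smul_apply, smul_eq_mul, inv_mul_cancel₀ h2]

/-- commuting with `SL(W)` is scalar -/
theorem scalar_of_commute {W : Type*} [AddCommGroup W] [Module F W] (hm : 2 ≤ finrank F W) (f : W ≃ₗ[F] W)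
    (h : ∀ (s : SLV F W) (w : W), (s : W ≃ₗ[F] W) (f w) = f ((s : W ≃ₗ[F] W) w)) : ∃ c : F, ∀ w, f w = c • w := by
  have hfin : Module.Finite F W := Module.finite_of_finrank_pos (by omega)
  have key : ∀ v : W, ∃ c : F, f v = c • v := by
    intro v
    by_cases hv : v = 0
    · exact ⟨1, by rw [hv, map_zero, smul_zero]⟩
    obtain ⟨u, hu⟩ : ∃ u, u ∉ Submodule.span F {v} := by
      by_contra hcon
      push Not at hcon
      have h2 : Submodule.span F {v} = ⊤ := eq_top_iff.2 fun u _ => hcon u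
      have h3 := finrank_span_singleton (K := F) hv
      rw [h2, finrank_top] at h3
      omega
    obtain ⟨φ, hφu, hφ⟩ := Submodule.exists_le_ker_of_notMem hu
    have hφv : φ v = 0 := hφ (Submodule.mem_span_singleton_self v)
    have h1 := h (tv φ v hφv) u
    rw [tv_apply, tv_apply, map_add, map_smul, add_right_inj] at h1
    refine ⟨(φ u)⁻¹ * φ (f u), ?_⟩
    rw [mul_smul, h1, inv_smul_smul₀ hφu]
  obtain ⟨c, hc⟩ := LinearMap.exists_eq_smul_id_of_forall_notLinearIndependent (R := F) (V := W)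
    (f := (f : W →ₗ[F] W)) (by
      intro v hv
      obtain ⟨c, hc⟩ := key v
      rw [LinearIndependent.pair_iff] at hv
      have := hv c (-1) (by
        change c • v + (-1 : F) • f v = 0
        rw [hc, neg_smul, one_smul, add_neg_cancel])
      exact neg_ne_zero.2 one_ne_zero this.2)
  refine ⟨c, fun v => ?_⟩
  have := congrArg (fun f : W →ₗ[F] W => f v) hc
  exact this

end emb

/-! ### structure of images of `SL_m(F)` -/

theorem exists_pi_of {F G : Type} [Field F] [Finite F] [Group G] {m : ℕ} (hm : 2 ≤ m) (h4 : m = 2 → 4 ≤ Nat.card F)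
    (μ : Matrix.SpecialLinearGroup (Fin m) F →* G)
    (hker : μ.ker ≤ Subgroup.center (Matrix.SpecialLinearGroup (Fin m) F)) :
    IsSimpleGroup (Matrix.ProjectiveSpecialLinearGroup (Fin m) F) ∧
      ¬ IsMulCommutative (Matrix.ProjectiveSpecialLinearGroup (Fin m) F) ∧
      ⁅μ.range, μ.range⁆ = μ.range ∧
      ∃ π : μ.range →* Matrix.ProjectiveSpecialLinearGroup (Fin m) F,
        Function.Surjective π ∧ π.ker ≤ Subgroup.center μ.range := by
  classical
  have : Fintype F := Fintype.ofFinite F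
  rw [Nat.card_eq_fintype_card] at h4
  have hperf : commutator (Matrix.SpecialLinearGroup (Fin m) F) = ⊤ := H982.TWModel.perfect_sl hm h4
  have : Nontrivial (Fin m) := Fin.nontrivial_iff_two_le.2 hm
  have hS : IsSimpleGroup (Matrix.ProjectiveSpecialLinearGroup (Fin m) F) :=
    LieClassical.SLGen.psl_isSimpleGroup_of_perfect hperf
  have hSn : ¬ IsMulCommutative (Matrix.ProjectiveSpecialLinearGroup (Fin m) F) :=
    not_comm_of_perf hperf (QuotientGroup.mk' _) (QuotientGroup.mk'_surjective _) hS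
  have hMperf : ⁅μ.range, μ.range⁆ = μ.range := by
    rw [MonoidHom.range_eq_map, ← Subgroup.map_commutator, ← commutator_def, hperf]
  let e1 : Matrix.SpecialLinearGroup (Fin m) F ⧸ μ.ker ≃* μ.range := QuotientGroup.quotientKerEquivRange μ
  let q : Matrix.SpecialLinearGroup (Fin m) F ⧸ μ.ker →* Matrix.ProjectiveSpecialLinearGroup (Fin m) F :=
    QuotientGroup.map μ.ker (Subgroup.center _) (MonoidHom.id _) hker
  have hqs : Function.Surjective q := by
    intro y
    obtain ⟨s, rfl⟩ := QuotientGroup.mk_surjective y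
    exact ⟨QuotientGroup.mk s, rfl⟩
  let π : μ.range →* Matrix.ProjectiveSpecialLinearGroup (Fin m) F := q.comp e1.symm.toMonoidHom
  have hπ : Function.Surjective π := hqs.comp e1.symm.surjective
  have hπk : π.ker ≤ Subgroup.center μ.range := by
    intro y hy
    obtain ⟨s', hs'⟩ := e1.surjective y
    obtain ⟨s, rfl⟩ := QuotientGroup.mk_surjective s'
    have h1 : q (QuotientGroup.mk s) = 1 := by
      have h2 : q (e1.symm y) = 1 := hy
      rwa [← hs', MulEquiv.symm_apply_apply] at h2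
    have h2 : s ∈ Subgroup.center (Matrix.SpecialLinearGroup (Fin m) F) := by
      have h3 : (QuotientGroup.mk s : Matrix.SpecialLinearGroup (Fin m) F ⧸
        Subgroup.center (Matrix.SpecialLinearGroup (Fin m) F)) = 1 := h1
      exact (QuotientGroup.eq_one_iff s).1 h3
    rw [Subgroup.mem_center_iff] at h2 ⊢
    rintro ⟨_, ⟨t, rfl⟩⟩
    have h4 : (y : G) = μ s := by rw [← hs']; rfl
    apply Subtype.ext
    change μ t * (y : G) = (y : G) * μ t
    rw [h4, ← map_mul, ← map_mul, h2 t]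
  exact ⟨hS, hSn, hMperf, π, hπ, hπk⟩

section main

variable {F V G Ω ι : Type} [Field F] [Finite F] [AddCommGroup V] [Module F V] [Module.Finite F V] [Group G]
  [MulAction G Ω] {N : Subgroup G} {κ : SLV F V →* G} {x : ι → G} {r : ι → ℕ}
  {a : ι → V ≃ₗ[F] V} {W W' : Submodule F V}

omit [Finite F] [Module.Finite F V] in
/-- equality of images of elements fixing a vector -/
theorem eq_of_fix_vec (h : Frame Ω N κ) {s t : SLV F V} (e : κ s = κ t) {v : V} (hv : v ≠ 0)
    (hs : (s : V ≃ₗ[F] V) v = v) (ht : (t : V ≃ₗ[F] V) v = v) : s = t := by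
  obtain ⟨c, hc⟩ := (eq_iff_smul h).1 e
  have h1 := hc v
  rw [hs, ht] at h1
  have hc1 : c = 1 := by
    have h3 : (c - 1) • v = 0 := by rw [sub_smul, one_smul, ← h1, sub_self]
    rcases smul_eq_zero.1 h3 with h | h
    · exact sub_eq_zero.1 h
    · exact absurd h hv
  apply SLV.ext
  intro u
  rw [hc u, hc1, one_smul]

omit [Finite F] in
/-- `κ(SL(W) ⊕ 1) ≤ N` -/
theorem MW_le (fr : Frame Ω N κ) (hc : IsCompl W W') : (κ.comp (em hc)).range ≤ N := by
  rw [← fr.range]
  rintro _ ⟨s, rfl⟩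
  exact ⟨_, rfl⟩

omit [Finite F] in
/-- `κ(SL(W) ⊕ 1) ≠ N` -/
theorem MW_ne (fr : Frame Ω N κ) (hc : IsCompl W W') (hd : W ≠ ⊥) (hd' : W' ≠ ⊥) : (κ.comp (em hc)).range ≠ N := by
  intro h
  obtain ⟨e, he, he0⟩ := Submodule.exists_mem_ne_zero_of_ne_bot hd
  obtain ⟨e', he', he0'⟩ := Submodule.exists_mem_ne_zero_of_ne_bot hd'
  have h1 : e' ∉ W := fun h1 => he0' (Submodule.disjoint_def.1 hc.disjoint _ h1 he')
  obtain ⟨φ, hφ, hφW⟩ := Submodule.exists_le_ker_of_notMem h1
  have hφe : φ e = 0 := hφW he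
  have h2 : κ (tv φ e hφe) ∈ (κ.comp (em hc)).range := by
    rw [h, ← fr.range]
    exact ⟨_, rfl⟩
  obtain ⟨s, hs⟩ := h2
  obtain ⟨c, hc'⟩ := (eq_iff_smul fr).1 (show κ (em hc s) = _ from hs)
  have h3 := hc' e'
  rw [em_right hc s he', tv_apply] at h3
  have h4 : (c * φ e') • e ∈ W' := by
    have h5 : (c * φ e') • e = e' - c • e' := by
      rw [mul_smul, eq_sub_iff_add_eq, ← smul_add, add_comm (φ e' • e)]
      exact h3.symm
    rw [h5]
    exact W'.sub_mem he' (W'.smul_mem _ he')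
  have h5 := Submodule.disjoint_def.1 hc.disjoint _ (W.smul_mem _ he) h4
  rcases smul_eq_zero.1 h5 with h6 | h6
  · rcases mul_eq_zero.1 h6 with h7 | h7
    · rw [h7, zero_smul] at h3
      exact he0' h3
    · exact hφ h7
  · exact he0 h6

/-- structure of `κ(SL(W) ⊕ 1)` -/
theorem exists_pi_sum (fr : Frame Ω N κ) (hc : IsCompl W W') (hd : 2 ≤ finrank F W) (hd' : W' ≠ ⊥)
    (hsm : finrank F W = 2 → 4 ≤ Nat.card F) :
    IsSimpleGroup (Matrix.ProjectiveSpecialLinearGroup (Fin (finrank F W)) F) ∧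
      ¬ IsMulCommutative (Matrix.ProjectiveSpecialLinearGroup (Fin (finrank F W)) F) ∧
      ⁅(κ.comp (em hc)).range, (κ.comp (em hc)).range⁆ = (κ.comp (em hc)).range ∧
      ∃ π : (κ.comp (em hc)).range →* Matrix.ProjectiveSpecialLinearGroup (Fin (finrank F W)) F,
        Function.Surjective π ∧ π.ker ≤ Subgroup.center (κ.comp (em hc)).range := by
  obtain ⟨e', he', he0'⟩ := Submodule.exists_mem_ne_zero_of_ne_bot hd'
  let b : Basis (Fin (finrank F W)) F W := Module.finBasis F W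
  let μ : Matrix.SpecialLinearGroup (Fin (finrank F W)) F →* G := (κ.comp (em hc)).comp (slE b).toMonoidHom
  have hμ : μ.range = (κ.comp (em hc)).range := by
    change ((κ.comp (em hc)).comp (slE b).toMonoidHom).range = _
    rw [MonoidHom.range_comp, MonoidHom.range_eq_top.2 (slE b).surjective, ← MonoidHom.range_eq_map]
  have hker : μ.ker ≤ Subgroup.center (Matrix.SpecialLinearGroup (Fin (finrank F W)) F) := by
    intro s hs
    rw [MonoidHom.mem_ker] at hs
    have h1 : κ (em hc (slE b s)) = κ 1 := by rw [map_one]; exact hs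
    have h2 := eq_of_fix_vec fr h1 he0' (em_right hc _ he') rfl
    have h3 : slE b s = 1 := by
      apply SLV.ext
      intro w
      apply Subtype.ext
      rw [← em_left hc, h2]
      rfl
    have h4 : s = 1 := (slE b).injective (by rw [h3, map_one])
    rw [h4]
    exact Subgroup.one_mem _
  rw [← hμ]
  exact exists_pi_of hd hsm μ hker

/-- the M-rule for `SL(W) ⊕ 1` -/
theorem mrule_sum [Finite ι] (h : LinCov Ω N κ x r a) (hc : IsCompl W W')
    (hW : ∀ i, ∀ w ∈ W, a i w ∈ W) (hW' : ∀ i, ∀ w ∈ W', a i w ∈ W') (hd : 2 ≤ finrank F W) (hd' : W' ≠ ⊥)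
    (hsm : finrank F W = 2 → 4 ≤ Nat.card F)
    (hRC : RC (Matrix.ProjectiveSpecialLinearGroup (Fin (finrank F W)) F) ∨
      ∃ i₀, ∀ i, i ≠ i₀ → ∃ c : F, ∀ w ∈ W, a i w = c • w) (ω : Ω) :
    (κ.comp (em hc)).range ≤ stabilizer G ω ∨
      ∃ j, (∀ m ∈ (κ.comp (em hc)).range, x j * m = m * x j) ∧ x j • ω = ω := by
  obtain ⟨hS, hSn, hMperf, π, hπ, hπk⟩ := exists_pi_sum h.fr hc hd hd' hsm
  have hnorm : ∀ i, x i ∈ Subgroup.normalizer ((κ.comp (em hc)).range : Set G) := by
    intro i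
    refine mem_norm_pow (h.pf.prime i).pos (h.pf.pow i) ?_
    rintro _ ⟨s, rfl⟩
    change x i * κ (em hc s) * (x i)⁻¹ ∈ _
    rw [h.lift, cj_em hc (a i) (hW i) (hW' i)]
    exact ⟨_, rfl⟩
  rcases hRC with hRC | ⟨i₀, hi₀⟩
  · exact mrule_RC hS hSn x r h.pf.prime h.pf.inj h.pf.pow h.pf.comm _ hMperf π hπ hπk hnorm hRC ω
      fun m _ => h.cov _
  · refine mrule_one hS hSn x r h.pf.prime h.pf.inj h.pf.pow h.pf.comm _ hMperf π hπ hπk i₀ (hnorm i₀) ?_ ω
      fun m _ => h.cov _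
    intro i hi
    obtain ⟨c, hc'⟩ := hi₀ i hi
    rintro _ ⟨s, rfl⟩
    change x i * κ (em hc s) = κ (em hc s) * x i
    have h1 := h.lift i (em hc s)
    have h2 : cj (a i) (em hc s) = em hc s := by
      apply cj_eq
      intro v
      obtain ⟨w, w', rfl⟩ := decomp hc v
      rw [map_add, map_add, map_add, map_add, em_left, em_right hc s w'.2, em_right hc _ (hW' i _ w'.2),
        hc' w w.2, map_smul, em_left, hc' _ (((s : W ≃ₗ[F] W) w).2)]
    rw [h2, mul_inv_eq_iff_eq_mul] at h1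
    exact h1

omit [Finite F] in
/-- elements centralising `M` are scalars on `W` -/
theorem scalar_of_cent (h : LinCov Ω N κ x r a) (hc : IsCompl W W')
    (hW : ∀ i, ∀ w ∈ W, a i w ∈ W) (hW' : ∀ i, ∀ w ∈ W', a i w ∈ W') (hd : 2 ≤ finrank F W) (hd' : W' ≠ ⊥)
    {j : ι} (hj : ∀ m ∈ (κ.comp (em hc)).range, x j * m = m * x j) : ∃ c : F, ∀ w ∈ W, a j w = c • w := by
  obtain ⟨e', he', he0'⟩ := Submodule.exists_mem_ne_zero_of_ne_bot hd'
  obtain ⟨c, hc'⟩ := scalar_of_commute hd (rs (a j) (hW j)) (by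
    intro s w
    have h1 := hj (κ (em hc s)) ⟨s, rfl⟩
    have h2 := h.lift j (em hc s)
    rw [h1, mul_inv_cancel_right, cj_em hc (a j) (hW j) (hW' j)] at h2
    have h3 := eq_of_fix_vec h.fr h2 he0' (em_right hc _ he') (em_right hc _ he')
    have h4 : s = cj (rs (a j) (hW j)) s := by
      apply SLV.ext
      intro u
      apply Subtype.ext
      rw [← em_left hc, h3, em_left]
    conv_lhs => rw [h4]
    rw [cj_apply])
  refine ⟨c, fun w hw => ?_⟩
  have := congrArg Subtype.val (hc' ⟨w, hw⟩)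
  exact this

/-- the character of `Q = κ(QW ⟨v⟩)` in terms of a vector -/
theorem exists_vector {v : V} (hv : v ≠ 0) {ψ : AddChar F ℂ} (hψ : ψ ≠ 1)
    (μ : (QW (Submodule.span F {v})).map κ →* ℂˣ) (hμ : μ ≠ 1) :
    ∃ u : V, u ∉ Submodule.span F {v} ∧ ∀ (φ : Dual F V) (hφ : φ v = 0),
        ((μ ⟨κ (tv φ v hφ), _, tv_mem_QW hφ, rfl⟩ : ℂˣ) : ℂ) = ψ (φ u) := by
  -- a functional with value one at `v`
  obtain ⟨f0, hf0⟩ : ∃ f0 : Dual F V, f0 v = 1 := by
    obtain ⟨f, hf1, -⟩ := Submodule.exists_le_ker_of_notMem (p := (⊥ : Submodule F V)) (v := v)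
      (by rw [Submodule.mem_bot]; exact hv)
    exact ⟨(f v)⁻¹ • f, by rw [LinearMap.smul_apply, smul_eq_mul, inv_mul_cancel₀ hf1]⟩
  let pr : Dual F V → Dual F V := fun φ => φ - φ v • f0
  have hpr : ∀ φ, pr φ v = 0 := fun φ => by
    change φ v - φ v • f0 v = 0
    rw [hf0, smul_eq_mul, mul_one, sub_self]
  have hpradd : ∀ φ φ', pr (φ + φ') = pr φ + pr φ' := fun φ φ' => by
    change (φ + φ') - (φ + φ') v • f0 = _
    rw [LinearMap.add_apply]
    change _ = (φ - φ v • f0) + (φ' - φ' v • f0)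
    module
  let χ : AddChar (Dual F V) ℂ :=
    { toFun := fun φ => ((μ ⟨κ (tv (pr φ) v (hpr φ)), _, tv_mem_QW (hpr φ), rfl⟩ : ℂˣ) : ℂ)
      map_zero_eq_one' := by
        have h0 : (⟨κ (tv (pr 0) v (hpr 0)), _, tv_mem_QW (hpr 0), rfl⟩ : (QW (Submodule.span F {v})).map κ) = 1 := by
          apply Subtype.ext
          change κ _ = 1
          rw [← map_one κ]
          congr 1
          apply SLV.ext
          intro y
          have : pr 0 = 0 := by change (0 : Dual F V) - (0 : Dual F V) v • f0 = 0; simp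
          rw [tv_apply, this, coe_one_apply]
          simp
        rw [h0, map_one]; rfl
      map_add_eq_mul' := fun φ φ' => by
        rw [← Units.val_mul, ← map_mul]
        congr 2
        apply Subtype.ext
        change κ _ = κ _ * κ _
        rw [← map_mul]
        congr 1
        rw [tv_mul_left]
        apply SLV.ext
        intro y
        rw [tv_apply, tv_apply, hpradd] }
  obtain ⟨ℓ, hℓ⟩ := exists_dual hψ χ
  let u : V := (Module.evalEquiv F V).symm ℓ
  have hu : ∀ φ : Dual F V, ℓ φ = φ u := by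
    intro φ
    have h1 : ℓ = Module.evalEquiv F V u := ((Module.evalEquiv F V).apply_symm_apply ℓ).symm
    rw [h1]; rfl
  have hval : ∀ (φ : Dual F V) (hφ : φ v = 0),
      ((μ ⟨κ (tv φ v hφ), _, tv_mem_QW hφ, rfl⟩ : ℂˣ) : ℂ) = ψ (φ u) := by
    intro φ hφ
    rw [← hu, ← hℓ]
    change _ = ((μ ⟨κ (tv (pr φ) v (hpr φ)), _, tv_mem_QW (hpr φ), rfl⟩ : ℂˣ) : ℂ)
    congr 2
    apply Subtype.ext
    change κ _ = κ _
    congr 1
    apply SLV.ext
    intro y
    have : pr φ = φ := by change φ - φ v • f0 = φ; rw [hφ, zero_smul, sub_zero]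
    rw [tv_apply, tv_apply, this]
  refine ⟨u, ?_, hval⟩
  intro huP
  apply hμ
  obtain ⟨d, hd⟩ := Submodule.mem_span_singleton.1 huP
  ext ⟨q, s, hs, rfl⟩
  obtain ⟨φ, hφ, rfl⟩ := exists_tv hv hs
  change ((μ ⟨κ (tv φ v hφ), _⟩ : ℂˣ) : ℂ) = 1
  rw [hval φ hφ, ← hd, map_smul, hφ, smul_zero, AddChar.map_zero_eq_one]

/-- every vector outside `⟨v⟩` gives an occurring character -/
theorem occ_vector [Finite G] [Nonempty Ω] (hf : Frame Ω N κ) (hn : 3 ≤ finrank F V) {v : V} (hv : v ≠ 0)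
    {ψ : AddChar F ℂ} (hψ : ψ ≠ 1) {u' : V} (hu' : u' ∉ Submodule.span F {v}) :
    ∃ (μ : (QW (Submodule.span F {v})).map κ →* ℂˣ) (ω : Ω),
      (∀ q : (QW (Submodule.span F {v})).map κ, (q : G) • ω = ω → μ q = 1) ∧
      ∀ (φ : Dual F V) (hφ : φ v = 0), ((μ ⟨κ (tv φ v hφ), _, tv_mem_QW hφ, rfl⟩ : ℂˣ) : ℂ) = ψ (φ u') := by
  classical
  obtain ⟨p, hp, hF⟩ : ∃ p : ℕ, p.Prime ∧ CharP F p :=
    ⟨ringChar F, CharP.char_is_prime F _, inferInstance⟩
  have := Fact.mk hp
  set P := Submodule.span F {v} with hP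
  have hvP : v ∈ P := Submodule.mem_span_singleton_self v
  -- a nontrivial element
  obtain ⟨f, hf1, hf2⟩ := Submodule.exists_le_ker_of_notMem hu'
  have hfv : f v = 0 := hf2 hvP
  have h1 : κ (tv f v hfv) ≠ 1 := by
    intro h1
    have h2 := eq_of_fix_vec (s := tv f v hfv) (t := 1) hf (by rw [h1, map_one]) hv
      (by rw [tv_apply, hfv, zero_smul, add_zero]) rfl
    have h3 := congrArg (fun s : SLV F V => (s : V ≃ₗ[F] V) u') h2
    simp only [tv_apply, coe_one_apply] at h3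
    have h4 : f u' • v = 0 := by rwa [add_eq_left] at h3
    rcases smul_eq_zero.1 h4 with h | h
    · exact hf1 h
    · exact hv h
  obtain ⟨ω, hω⟩ := hf.env.exists_move h1
  have hpg : IsPGroup p ((QW P).map κ) := by
    rintro ⟨_, s, hs, rfl⟩
    refine ⟨1, ?_⟩
    apply Subtype.ext
    rw [pow_one, Subgroup.coe_pow, Subgroup.coe_one]
    change (κ s) ^ p = 1
    rw [← map_pow, QW_pow hs, map_one]
  obtain ⟨μ, hμ1, -, hμω⟩ := exists_occ hpg ⟨_, ⟨_, tv_mem_QW hfv, rfl⟩, hω⟩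
  obtain ⟨u, hu, hμu⟩ := exists_vector hv hψ μ hμ1
  obtain ⟨s, hs1, hs2⟩ := exists_sl hn (v := v) (u := u) (u' := u') hu hu'
  have hs1' : ((s⁻¹ : SLV F V) : V ≃ₗ[F] V) v = v := by
    conv_lhs => rw [← hs1]
    rw [coe_inv_apply]
  have hs2' : ((s⁻¹ : SLV F V) : V ≃ₗ[F] V) u' = u := by
    conv_lhs => rw [← hs2]
    rw [coe_inv_apply]
  have e1 : ∀ (φ : Dual F V) (hφ : φ v = 0), s⁻¹ * tv φ v hφ * s = tv (φ ∘ₗ ((s : V ≃ₗ[F] V) : V →ₗ[F] V)) v (by
      rw [LinearMap.comp_apply, LinearEquiv.coe_coe, hs1, hφ]) := by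
    intro φ hφ
    apply SLV.ext
    intro y
    rw [coe_mul_apply, coe_mul_apply, tv_apply, map_add, map_smul, hs1', coe_inv_apply, tv_apply]
    rfl
  have hsQ : ∀ q ∈ (QW P).map κ, (κ s)⁻¹ * q * κ s ∈ (QW P).map κ := by
    rintro _ ⟨t, ht, rfl⟩
    obtain ⟨φ, hφ, rfl⟩ := exists_tv hv ht
    rw [← map_inv, ← map_mul, ← map_mul, e1]
    exact ⟨_, tv_mem_QW _, rfl⟩
  obtain ⟨ω', hω'⟩ := occ_conjC ⟨ω, hμω⟩ (κ s) hsQ
  refine ⟨conjC _ μ (κ s) hsQ, ω', hω', ?_⟩
  intro φ hφ
  change ((μ ⟨(κ s)⁻¹ * κ (tv φ v hφ) * κ s, _⟩ : ℂˣ) : ℂ) = _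
  have hφs : (φ ∘ₗ ((s : V ≃ₗ[F] V) : V →ₗ[F] V)) v = 0 := by
    rw [LinearMap.comp_apply, LinearEquiv.coe_coe, hs1, hφ]
  have e2 : (⟨(κ s)⁻¹ * κ (tv φ v hφ) * κ s, hsQ _ ⟨_, tv_mem_QW hφ, rfl⟩⟩ : (QW P).map κ) =
      ⟨κ (tv (φ ∘ₗ ((s : V ≃ₗ[F] V) : V →ₗ[F] V)) v hφs), _, tv_mem_QW hφs, rfl⟩ := by
    apply Subtype.ext
    change (κ s)⁻¹ * κ (tv φ v hφ) * κ s = κ _
    rw [← map_inv, ← map_mul, ← map_mul, e1]
  rw [e2, hμu _ hφs, LinearMap.comp_apply, LinearEquiv.coe_coe, hs2]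

/-- **Box C.** -/
theorem no_sum [Finite G] [Nonempty Ω] [Finite ι] (h : LinCov Ω N κ x r a) (hn : 3 ≤ finrank F V)
    (W W' : Submodule F V) (hc : IsCompl W W')
    (hW : ∀ i, ∀ w ∈ W, a i w ∈ W) (hW' : ∀ i, ∀ w ∈ W', a i w ∈ W') (hd : 2 ≤ finrank F W) (hd' : W' ≠ ⊥)
    (hsm : finrank F W = 2 → 4 ≤ Nat.card F) (_hns : ∃ i, ¬ ∃ c : F, ∀ w ∈ W, a i w = c • w)
    (hRC : RC (Matrix.ProjectiveSpecialLinearGroup (Fin (finrank F W)) F) ∨
      ∃ i₀, ∀ i, i ≠ i₀ → ∃ c : F, ∀ w ∈ W, a i w = c • w) : False := by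
  classical
  have hrule := mrule_sum h hc hW hW' hd hd' hsm hRC
  set M := (κ.comp (em hc)).range with hM
  -- the members centralising `M`
  let J := {j : ι // ∀ m ∈ M, x j * m = m * x j}
  have hsc : ∀ j : J, ∃ c : F, ∀ w ∈ W, a j.1 w = c • w := fun j => scalar_of_cent h hc hW hW' hd hd' j.2
  choose lam hlam using hsc
  -- vectors of `W`
  obtain ⟨v, hv, hv0⟩ : ∃ v ∈ W, v ≠ 0 := by
    apply Submodule.exists_mem_ne_zero_of_ne_bot
    rintro rfl
    simp at hd
  have hlam0 : ∀ j, lam j ≠ 0 := by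
    intro j h0
    have h1 := hlam j v hv
    rw [h0, zero_smul] at h1
    exact hv0 ((a j.1).map_eq_zero_iff.1 h1)
  obtain ⟨w, hw, hwv⟩ : ∃ w ∈ W, ¬ ∃ c : F, w = c • v := by
    by_contra hno
    push Not at hno
    have h1 : W ≤ Submodule.span F {v} := by
      intro w hw
      obtain ⟨c, hc⟩ := hno w hw
      rw [hc]
      exact Submodule.smul_mem _ _ (Submodule.mem_span_singleton_self v)
    have h2 := Submodule.finrank_mono h1
    rw [finrank_span_singleton hv0] at h2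
    omega
  -- the normalised elements on `W'`
  let β : J → (V ≃ₗ[F] V) := fun j => LinearEquiv.smulOfNeZero F V (lam j)⁻¹ (inv_ne_zero (hlam0 j)) * a j.1
  have hβ : ∀ j y, β j y = (lam j)⁻¹ • a j.1 y := fun _ _ => rfl
  have hβW : ∀ j, ∀ y ∈ W', β j y ∈ W' := fun j y hy => W'.smul_mem _ (hW' _ y hy)
  have hβw : ∀ j, ∀ y ∈ W, β j y = y := fun j y hy => by
    rw [hβ, hlam j y hy, smul_smul, inv_mul_cancel₀ (hlam0 j), one_smul]
  let b : J → (W' ≃+ W') := fun j => (rs (β j) (hβW j)).toAddEquiv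
  have hb : ∀ j (y : W'), (b j y : V) = β j y := fun _ _ => rfl
  have hbit : ∀ j (k : ℕ) (y : W'), (((b j)^[k] y : W') : V) = (β j ^ k) y := by
    intro j k
    induction k with
    | zero => intro y; rfl
    | succ k ih =>
      intro y
      rw [Function.iterate_succ_apply, ih, hb, pow_succ]
      rfl
  have hβpow : ∀ j (k : ℕ) y, (β j ^ k) y = (lam j)⁻¹ ^ k • (a j.1 ^ k) y := by
    intro j k
    induction k with
    | zero => intro y; simp
    | succ k ih =>
      intro y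
      rw [pow_succ' (β j)]
      change β j ((β j ^ k) y) = _
      rw [ih, hβ, map_smul, smul_smul, pow_succ' (a j.1), pow_succ' (lam j)⁻¹]
      rfl
  have h1W : ∀ j (k : ℕ), ∀ y ∈ W, (a j.1 ^ k) y = (lam j) ^ k • y := by
    intro j k
    induction k with
    | zero => intro y _; simp
    | succ k ih =>
      intro y hy
      rw [pow_succ' (a j.1)]
      change a j.1 ((a j.1 ^ k) y) = _
      rw [ih y hy, map_smul, hlam j y hy, smul_smul, pow_succ]
  have hbpow : ∀ j (y : W'), (b j)^[r j.1] y = y := by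
    intro j y
    apply Subtype.ext
    rw [hbit, hβpow]
    obtain ⟨c, hc'⟩ := pow_scalar h (by omega) j.1
    have h2 := h1W j (r j.1) v hv
    rw [hc' v] at h2
    have h3 : c = lam j ^ r j.1 := by
      have h4 : (c - lam j ^ r j.1) • v = 0 := by rw [sub_smul, h2, sub_self]
      rcases smul_eq_zero.1 h4 with h5 | h5
      · exact sub_eq_zero.1 h5
      · exact absurd h5 hv0
    rw [hc', h3, smul_smul, inv_pow, inv_mul_cancel₀ (pow_ne_zero _ (hlam0 j)), one_smul]
  have hbne : ∀ j, ∃ y, b j y ≠ y := by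
    intro j
    by_contra hno
    push Not at hno
    apply h.pf.ne j.1
    have h2 : ∀ y, a j.1 y = lam j • y := by
      intro y
      obtain ⟨u, u', rfl⟩ := decomp hc y
      have h3 := congrArg Subtype.val (hno u')
      rw [hb, hβ] at h3
      rw [map_add, smul_add, hlam j _ u.2]
      congr 1
      conv_rhs => rw [← h3]
      rw [smul_smul, mul_inv_cancel₀ (hlam0 j), one_smul]
    have h3 : x j.1 ∈ Subgroup.centralizer (N : Set G) := by
      rw [Subgroup.mem_centralizer_iff]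
      intro n hn
      rw [← h.fr.range] at hn
      obtain ⟨s, rfl⟩ := hn
      have h4 := h.lift j.1 s
      have h5 : cj (a j.1) s = s := by
        apply cj_eq
        intro y
        rw [h2, h2, map_smul]
      rw [h5, mul_inv_eq_iff_eq_mul] at h4
      exact h4.symm
    rwa [h.fr.env.cent, Subgroup.mem_bot] at h3
  obtain ⟨p, hp, hF⟩ : ∃ p : ℕ, p.Prime ∧ CharP F p :=
    ⟨ringChar F, CharP.char_is_prime F _, inferInstance⟩
  have hfW : Finite W' := Module.finite_of_finite F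
  obtain ⟨n, hn'⟩ : ∃ n : ℕ, Nat.card W' = p ^ n := by
    cases nonempty_fintype F
    obtain ⟨m, -, hm⟩ := FiniteField.card F p
    refine ⟨m * finrank F W', ?_⟩
    rw [Module.natCard_eq_pow_finrank (K := F) (V := W'), Nat.card_eq_fintype_card, hm, pow_mul]
  obtain ⟨w', hw'⟩ := exists_vec hp hn' b (fun j => r j.1) (fun j => h.pf.prime _)
    (fun i j hij => Subtype.ext (h.pf.inj hij)) (by
      intro i j y
      apply Subtype.ext
      rw [hb, hb, hb, hb, hβ, hβ, hβ, hβ, map_smul, map_smul, smul_comm]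
      congr 2
      exact congrArg (fun f : V ≃ₗ[F] V => f y) (h.comm i.1 j.1)) hbpow hbne
  -- the character
  obtain ⟨ψ, hψ⟩ := exists_psi F
  have hψ1 : ¬ ∀ c : F, ψ c = 1 := by
    intro h1
    apply hψ
    ext c
    rw [h1 c]
    rfl
  have hu' : w + (w' : V) ∉ Submodule.span F {v} := by
    intro h1
    obtain ⟨c, hc'⟩ := Submodule.mem_span_singleton.1 h1
    apply hwv
    refine ⟨c, ?_⟩
    have h2 : w - c • v = -(w' : V) := by rw [hc']; abel
    have h3 : w - c • v ∈ W := W.sub_mem hw (W.smul_mem _ hv)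
    have h4 : w - c • v ∈ W' := by rw [h2]; exact W'.neg_mem w'.2
    have h5 := Submodule.disjoint_def.1 hc.disjoint _ h3 h4
    exact sub_eq_zero.1 h5
  obtain ⟨μ, ω, hω, hμ⟩ := occ_vector h.fr hn hv0 hψ hu'
  have hsymv : ∀ j : J, (a j.1).symm v = (lam j)⁻¹ • v := by
    intro j
    rw [LinearEquiv.symm_apply_eq, map_smul, hlam j v hv, smul_smul, inv_mul_cancel₀ (hlam0 j), one_smul]
  have hcjt : ∀ (j : J) (φ : Dual F V) (hφ : φ v = 0), ∃ hφ' : (lam j • (φ ∘ₗ ((a j.1).symm : V →ₗ[F] V))) v = 0,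
      x j.1 * κ (tv φ v hφ) * (x j.1)⁻¹ = κ (tv (lam j • (φ ∘ₗ ((a j.1).symm : V →ₗ[F] V))) v hφ') := by
    intro j φ hφ
    refine ⟨?_, ?_⟩
    · rw [LinearMap.smul_apply, LinearMap.comp_apply, LinearEquiv.coe_coe, hsymv, map_smul, hφ, smul_zero, smul_zero]
    · rw [h.lift, cj_tv]
      congr 1
      apply SLV.ext
      intro y
      rw [tv_apply, tv_apply, hlam j v hv, smul_smul, LinearMap.smul_apply, smul_eq_mul, mul_comm]
  have hpf : PF (fun j : J => x j.1) (fun j : J => r j.1) :=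
    ⟨fun j => h.pf.prime _, fun i j hij => Subtype.ext (h.pf.inj hij), fun j => h.pf.pow _, fun j => h.pf.ne _,
      fun i j => h.pf.comm _ _⟩
  have hQ : ∀ j : J, ∀ q ∈ (QW (Submodule.span F {v})).map κ, x j.1 * q * (x j.1)⁻¹ ∈ (QW (Submodule.span F {v})).map κ := by
    rintro j _ ⟨t, ht, rfl⟩
    obtain ⟨φ, hφ, rfl⟩ := exists_tv hv0 ht
    obtain ⟨hφ', e⟩ := hcjt j φ hφ
    rw [e]
    exact ⟨_, tv_mem_QW _, rfl⟩
  have hmoved : ∀ j : J, ¬ FixC ((QW (Submodule.span F {v})).map κ) μ (x j.1) := by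
    intro j hfix
    -- `z = lam a⁻¹ w' - w' ≠ 0`
    set z : V := lam j • (a j.1).symm (w' : V) - w' with hz
    have hsW : ∀ y ∈ W, (a j.1).symm y ∈ W := by
      intro y hy
      have h2 : (a j.1).symm y = (lam j)⁻¹ • y := by
        rw [LinearEquiv.symm_apply_eq, map_smul, hlam j y hy, smul_smul, inv_mul_cancel₀ (hlam0 j), one_smul]
      rw [h2]
      exact W.smul_mem _ hy
    have hz0 : z ≠ 0 := by
      intro h0
      apply hw' j
      apply Subtype.ext
      rw [hb, hβ]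
      have h2 : (w' : V) = lam j • (a j.1).symm (w' : V) := (sub_eq_zero.1 h0).symm
      have h3 := congrArg (a j.1) h2
      rw [map_smul, LinearEquiv.apply_symm_apply] at h3
      rw [h3, smul_smul, inv_mul_cancel₀ (hlam0 j), one_smul]
    have hzW : z ∉ W := by
      intro hzW
      have hzW' : z ∈ W' := by
        refine W'.sub_mem (W'.smul_mem _ ?_) w'.2
        -- `a⁻¹ w' ∈ W'`
        have h3 : (b j).symm w' ∈ (⊤ : Set W') := trivial
        have h4 : (lam j) • (a j.1).symm (w' : V) = ((b j).symm w' : W') := by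
          have h5 := congrArg Subtype.val ((b j).apply_symm_apply w')
          rw [hb, hβ] at h5
          have h6 : (w' : V) = a j.1 ((lam j)⁻¹ • (((b j).symm w' : W') : V)) := by rw [map_smul]; exact h5.symm
          rw [h6, LinearEquiv.symm_apply_apply, smul_smul, mul_inv_cancel₀ (hlam0 j), one_smul]
        have h7 : (a j.1).symm (w' : V) = (lam j)⁻¹ • (((b j).symm w' : W') : V) := by
          rw [← h4, smul_smul, inv_mul_cancel₀ (hlam0 j), one_smul]
        rw [h7]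
        exact W'.smul_mem _ ((b j).symm w').2
      exact hz0 (Submodule.disjoint_def.1 hc.disjoint _ hzW hzW')
    obtain ⟨f, hf1, hf2⟩ := Submodule.exists_le_ker_of_notMem hzW
    apply hψ1
    intro c
    set φ : Dual F V := (c * (f z)⁻¹) • f with hφdef
    have hφW : ∀ y ∈ W, φ y = 0 := by
      intro y hy
      have : f y = 0 := hf2 hy
      rw [hφdef, LinearMap.smul_apply, this, smul_zero]
    have hφz : φ z = c := by
      rw [hφdef, LinearMap.smul_apply, smul_eq_mul, mul_assoc, inv_mul_cancel₀ hf1, mul_one]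
    have hφv : φ v = 0 := hφW v hv
    obtain ⟨hφ', e⟩ := hcjt j φ hφv
    have h2 := hfix ⟨κ (tv φ v hφv), _, tv_mem_QW hφv, rfl⟩ ⟨κ (tv _ v hφ'), _, tv_mem_QW hφ', rfl⟩ e.symm
    have h3 := congrArg Units.val h2
    rw [hμ, hμ] at h3
    have h4 : ψ ((lam j • (φ ∘ₗ ((a j.1).symm : V →ₗ[F] V))) (w + w') - φ (w + w')) = 1 := by
      rw [AddChar.map_sub_eq_div, h3, div_self]
      exact (ψ.val_isUnit _).ne_zero
    have h5 : (lam j • (φ ∘ₗ ((a j.1).symm : V →ₗ[F] V))) (w + w') - φ (w + w') = c := by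
      rw [LinearMap.smul_apply, LinearMap.comp_apply, LinearEquiv.coe_coe, map_add, map_add, map_add,
        hφW _ (hsW w hw), hφW w hw, zero_add, zero_add, ← map_smul, ← map_sub, ← hz, hφz]
    rwa [h5] at h4
  -- T2
  apply hψ1
  intro c
  obtain ⟨φ0, hφ0', hφ0v, hφ0w⟩ := exists_phi hc hv hw hwv
  set φ : Dual F V := c • φ0 with hφdef
  have hφW' : ∀ y ∈ W', φ y = 0 := fun y hy => by rw [hφdef, LinearMap.smul_apply, hφ0' y hy, smul_zero]
  have hφv : φ v = 0 := by rw [hφdef, LinearMap.smul_apply, hφ0v, smul_zero]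
  have hφw : φ w = c := by rw [hφdef, LinearMap.smul_apply, hφ0w, smul_eq_mul, mul_one]
  have hφv' : (φ.domRestrict W) ⟨v, hv⟩ = 0 := hφv
  have hcM : κ (tv φ v hφv) ∈ M := by
    refine ⟨tv (φ.domRestrict W) ⟨v, hv⟩ hφv', ?_⟩
    change κ (em hc _) = _
    congr 1
    apply SLV.ext
    intro y
    obtain ⟨u, u', rfl⟩ := decomp hc y
    rw [map_add, em_left, em_right hc _ u'.2, tv_apply, tv_apply, map_add, hφW' _ u'.2, add_zero]
    change ((u : V) + φ u • v) + u' = (u : V) + u' + φ u • v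
    abel
  have hT := T2 hpf hQ μ ω hω hmoved ⟨κ (tv φ v hφv), _, tv_mem_QW hφv, rfl⟩ (fun j => (j.2 _ hcM).symm) (by
    intro ω' hω'
    rcases hrule ω' with h1 | ⟨j, hj, hjω⟩
    · exact h1 hcM
    · exact absurd hjω (hω' ⟨j, hj⟩))
  have h1 := congrArg Units.val hT
  rw [hμ, map_add, hφw, hφW' _ w'.2, add_zero] at h1
  exact h1

end main

end Cfsg.Agent.H253.RC.NoSum
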