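import Cfsg.Agent.H253.RC.T3Tools
import Cfsg.Agent.H579.RC.Opg
import Cfsg.Agent.H499.RC.ZU
import Cfsg.Agent.H393.RC.TriZ9
import Cfsg.Agent.H256.RC.ZFour

/-!
# S3510, triality type iii: `dead_G0` and `dead_G2` (helper253)
-/

set_option autoImplicit false
open Cfsg

namespace Cfsg.Agent.H864.RC

open Module QuadraticMap MulAction
open Cfsg.Agent.LieClassical.OrthCore Cfsg.Agent.LieClassical.OrthTrans
open Cfsg.Agent.LieClassical.OrthSimple Cfsg.Agent.ClassicalGeometry.OrthSemi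
open Cfsg.Agent.ClassicalGeometry.OrthAut1 Cfsg.Agent.H106.RC Cfsg.Agent.H93.RC Cfsg.Agent.H566.RC
open Cfsg.Agent.LieClassical.QuadForms Cfsg.Agent.ClassicalGeometry.TrialityOct
open Cfsg.Agent.ClassicalGeometry.Triality Cfsg.Agent.ClassicalGeometry.TrialitySpaces
open Cfsg.Agent.H198.TriBase Cfsg.Agent.H198.TriAut Cfsg.Agent.H206.Balance Cfsg.Agent.H198.TriDia

/-- an odd number `> 3`, not divisible by `9`, has a prime divisor `≠ 2, 3` -/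
theorem exists_prime_ne {n : ℕ} (h1 : 3 < n) (h2 : ¬ 2 ∣ n) (h9 : ¬ 9 ∣ n) : ∃ l : ℕ, l.Prime ∧ l ≠ 2 ∧ l ≠ 3 ∧ l ∣ n := by
  by_cases h3 : 3 ∣ n
  · obtain ⟨m, rfl⟩ := h3
    have hm : m ≠ 1 := by omega
    obtain ⟨l, hl, hlm⟩ := Nat.exists_prime_and_dvd hm
    refine ⟨l, hl, ?_, ?_, hlm.mul_left 3⟩
    · rintro rfl; exact h2 (hlm.mul_left 3)
    · rintro rfl; exact h9 (by rw [show 9 = 3 * 3 from rfl]; exact Nat.mul_dvd_mul_left 3 hlm)
  · obtain ⟨l, hl, hlm⟩ := Nat.exists_prime_and_dvd (show n ≠ 1 by omega)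
    exact ⟨l, hl, fun h => h2 (h ▸ hlm), fun h => h3 (h ▸ hlm), hlm⟩

/-- `q₀² + 1`, `q₀ ≥ 2` -/
theorem exists_prime_four {q0 : ℕ} (h : 2 ≤ q0) : ∃ l : ℕ, l.Prime ∧ l ≠ 2 ∧ l ≠ 3 ∧ l ∣ q0 ^ 2 + 1 := by
  have h4 : ¬ 4 ∣ q0 ^ 2 + 1 := by
    intro h4
    have h5 : (q0 ^ 2 + 1) % 4 = 0 := Nat.mod_eq_zero_of_dvd h4
    have h6 : q0 % 4 < 4 := Nat.mod_lt _ (by norm_num)
    have h7 : (q0 ^ 2 + 1) % 4 = ((q0 % 4) ^ 2 + 1) % 4 := by
      rw [Nat.add_mod, Nat.pow_mod, ← Nat.add_mod]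
    rw [h7] at h5
    generalize q0 % 4 = a at *
    interval_cases a <;> revert h5 <;> decide
  have h3 : ¬ 3 ∣ q0 ^ 2 + 1 := by
    intro h4
    have h5 : (q0 ^ 2 + 1) % 3 = 0 := Nat.mod_eq_zero_of_dvd h4
    have h6 : q0 % 3 < 3 := Nat.mod_lt _ (by norm_num)
    have h7 : (q0 ^ 2 + 1) % 3 = ((q0 % 3) ^ 2 + 1) % 3 := by
      rw [Nat.add_mod, Nat.pow_mod, ← Nat.add_mod]
    rw [h7] at h5
    generalize q0 % 3 = a at *
    interval_cases a <;> revert h5 <;> decide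
  have h5 : 5 ≤ q0 ^ 2 + 1 := by nlinarith
  by_cases h2 : 2 ∣ q0 ^ 2 + 1
  · obtain ⟨m, hm⟩ := h2
    have hm1 : m ≠ 1 := by omega
    obtain ⟨l, hl, hlm⟩ := Nat.exists_prime_and_dvd hm1
    have hd : l ∣ q0 ^ 2 + 1 := by rw [hm]; exact hlm.mul_left 2
    refine ⟨l, hl, ?_, fun h => h3 (h ▸ hd), hd⟩
    rintro rfl
    apply h4
    rw [hm, show 4 = 2 * 2 from rfl]
    exact Nat.mul_dvd_mul_left 2 hlm
  · obtain ⟨l, hl, hlm⟩ := Nat.exists_prime_and_dvd (show q0 ^ 2 + 1 ≠ 1 by omega)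
    exact ⟨l, hl, fun h => h2 (h ▸ hlm), fun h => h3 (h ▸ hlm), hlm⟩

theorem odd_nine {q : ℕ} : ¬ 2 ∣ q ^ 2 + q + 1 ∧ ¬ 9 ∣ q ^ 2 + q + 1 := by
  constructor
  · intro h
    have h5 : (q ^ 2 + q + 1) % 2 = 0 := Nat.mod_eq_zero_of_dvd h
    rcases Nat.mod_two_eq_zero_or_one q with h6 | h6 <;>
      simp [Nat.add_mod, Nat.pow_mod, h6] at h5
  · intro h
    have h5 : (q ^ 2 + q + 1) % 9 = 0 := Nat.mod_eq_zero_of_dvd h
    have h6 : q % 9 < 9 := Nat.mod_lt _ (by norm_num)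
    have h7 : (q ^ 2 + q + 1) % 9 = ((q % 9) ^ 2 + q % 9 + 1) % 9 := by
      simp [Nat.add_mod, Nat.pow_mod]
    rw [h7] at h5
    generalize q % 9 = a at *
    interval_cases a <;> revert h5 <;> decide

theorem odd_nine' {q : ℕ} (hq : 1 ≤ q) : ¬ 2 ∣ q ^ 2 - q + 1 ∧ ¬ 9 ∣ q ^ 2 - q + 1 := by
  obtain ⟨m, rfl⟩ : ∃ m, q = m + 1 := ⟨q - 1, by omega⟩
  have e : (m + 1) ^ 2 - (m + 1) + 1 = m ^ 2 + m + 1 := by
    have : (m + 1) ^ 2 = (m ^ 2 + m) + (m + 1) := by ring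
    rw [this, Nat.add_sub_cancel]
  rw [e]
  exact odd_nine

variable {F : Type} [Field F]

section env

variable {G Ω ι : Type} [Group G] [MulAction G Ω] {N : Subgroup G} {hG : Good (plusForm 4 F)}
  {κ : P8 F →* G} {s : F ≃+* F} {x₁ : G} {x : ι → G} {r : ι → ℕ} {g : ι → (V8 F ≃ₗ[F] V8 F)}

/-- a one-parameter group in `E Q` commuting with the `g i` (no `r i = p`) has a conjugate in `AutD`; `zu2` : there is none -/
theorem dead_opg [Finite F] [Finite G] [Finite ι] {p : ℕ} [CharP F p] (h : T3 hG N κ s Ω x₁ x r g)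
    (hN : NoN Ω N) (hrp : ∀ i, r i ≠ p)
    (opg : ∃ (X Y : V8 F →ₗ[F] V8 F) (a : F → (V8 F ≃ₗ[F] V8 F)), X ≠ 0 ∧
      (p = 2 → finrank F (LinearMap.range Y) ≤ 1) ∧
      (∀ t v, a t v = v + t • X v + t ^ 2 • Y v) ∧ (∀ t, a t ∈ E (plusForm 4 F)) ∧
      (∀ t u, a (t + u) = a t * a u) ∧ ∀ t i, a t * g i = g i * a t)
    (zu2 : ∀ (X Y : V8 F →ₗ[F] V8 F) (c : F → (V8 F ≃ₗ[F] V8 F)), (∀ t, c t ∈ AutD (fG s)) →
      (∀ t v, c t v = v + t • X v + t ^ 2 • Y v) → (Nat.card F = 8 → finrank F (LinearMap.range Y) ≤ 1) →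
      X = 0 ∧ Y = 0) : False := by
  have hp : p.Prime := CharP.char_is_prime F p
  have := Fact.mk hp
  obtain ⟨X, Y, a, hX, hY, ha, haE, hadd, hcom⟩ := opg
  have a0 : a 0 = 1 := by
    apply LinearEquiv.ext
    intro v
    rw [ha, zero_smul, zero_pow (by norm_num), zero_smul, add_zero, add_zero]
    rfl
  let φ : Multiplicative F →* (V8 F ≃ₗ[F] V8 F) :=
    { toFun := fun t => a (Multiplicative.toAdd t)
      map_one' := a0
      map_mul' := fun t u => hadd _ _ }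
  have hφ : ∀ t : F, a t = φ (Multiplicative.ofAdd t) := fun t => rfl
  have hA : IsPGroup p φ.range := by
    rintro ⟨_, t, rfl⟩
    refine ⟨1, Subtype.ext ?_⟩
    rw [pow_one, Subgroup.coe_pow]
    change φ t ^ p = 1
    rw [← map_pow]
    have : t ^ p = 1 := by
      apply Multiplicative.toAdd.injective
      rw [toAdd_pow, toAdd_one, nsmul_eq_mul, CharP.cast_eq_zero, zero_mul]
    rw [this, map_one]
  obtain ⟨d, hd, hdA⟩ := h.kl_lin hN hp (h.ir hN hp hrp) (fun h2 => by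
      have := CharP.cast_eq_zero F p
      rw [h2] at this
      exact_mod_cast this) φ.range hA (by rintro _ ⟨t, rfl⟩; exact haE _) (by rintro _ ⟨t, rfl⟩ i; exact hcom _ i)
  let X' : V8 F →ₗ[F] V8 F := (d : V8 F →ₗ[F] V8 F) ∘ₗ X ∘ₗ (d.symm : V8 F →ₗ[F] V8 F)
  let Y' : V8 F →ₗ[F] V8 F := (d : V8 F →ₗ[F] V8 F) ∘ₗ Y ∘ₗ (d.symm : V8 F →ₗ[F] V8 F)
  have h1 := zu2 X' Y' (fun t => d * a t * d⁻¹) (fun t => hdA _ ⟨_, rfl⟩) (fun t v => by
    change d (a t (d.symm v)) = v + t • d (X (d.symm v)) + t ^ 2 • d (Y (d.symm v))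
    rw [ha, map_add, map_add, map_smul, map_smul, LinearEquiv.apply_symm_apply]) (fun h8 => by
    have hp2 : p = 2 := by
      have h9 : (8 : F) = 0 := by
        have hft := Fintype.ofFinite F
        have := Nat.cast_card_eq_zero F
        have e : Fintype.card F = 8 := by rw [← Nat.card_eq_fintype_card]; exact h8
        rw [e] at this
        exact_mod_cast this
      have h10 : p ∣ 8 := (CharP.cast_eq_zero_iff F p 8).1 (by exact_mod_cast h9)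
      have h11 : p ∣ 2 ^ 3 := by norm_num; exact h10
      exact (Nat.prime_dvd_prime_iff_eq hp Nat.prime_two).1 (hp.dvd_of_dvd_pow h11)
    refine le_trans (le_of_eq ?_) (hY hp2)
    have e1 : LinearMap.range Y' = (LinearMap.range Y).map (d : V8 F →ₗ[F] V8 F) := by
      rw [LinearMap.range_comp, LinearMap.range_comp_of_range_eq_top]
      exact LinearEquiv.range d.symm
    rw [e1]
    exact LinearEquiv.finrank_map_eq d _)
  apply hX
  apply LinearMap.ext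
  intro v
  have h2 := LinearMap.congr_fun h1.1 (d v)
  have h3 : d (X (d.symm (d v))) = 0 := h2
  rw [LinearEquiv.symm_apply_apply] at h3
  exact d.map_eq_zero_iff.1 h3

/-- an element of `E Q` of odd prime order `l` commuting with the `g i`: `AutD` contains an element of order `l` -/
theorem T3.exists_order [Finite F] [Finite G] [Finite ι] (h : T3 hG N κ s Ω x₁ x r g) (hN : NoN Ω N) {l : ℕ}
    (hl : l.Prime) (hl2 : l ≠ 2) {c : V8 F ≃ₗ[F] V8 F} (hcE : c ∈ E (plusForm 4 F)) (hcl : c ^ l = 1) (hc1 : c ≠ 1)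
    (hcc : ∀ i, c * g i = g i * c) : ∃ c' ∈ AutD (fG s), c' ^ l = 1 ∧ c' ≠ 1 := by
  by_cases h1 : ∃ i, r i = l
  · obtain ⟨i, rfl⟩ := h1
    exact ⟨g i, h.mem i, h.pow i, h.ne1 i⟩
  · push Not at h1
    have := Fact.mk hl
    have ho : orderOf c = l := orderOf_eq_prime hcl hc1
    obtain ⟨d, hd, hdc⟩ := h.kl_lin hN hl (h.ir hN hl h1) (fun h => (hl2 h).elim) (Subgroup.zpowers c)
      (IsPGroup.of_card (n := 1) (by rw [Nat.card_zpowers, ho, pow_one])) (Subgroup.zpowers_le.2 hcE) (by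
        rintro a ha i
        obtain ⟨n, rfl⟩ := Subgroup.mem_zpowers_iff.1 ha
        have h2 : Commute c (g i) := hcc i
        exact (h2.zpow_left n).eq)
    refine ⟨d * c * d⁻¹, hdc c (Subgroup.mem_zpowers c), by rw [conj_pow, hcl]; group, fun h2 => hc1 ?_⟩
    have h3 : c = d⁻¹ * (d * c * d⁻¹) * d := by group
    rw [h3, h2]
    group

/-- `dead_G2`, from the orders which do not occur in `AutD (fG s)` -/
theorem dead_G2_of [Finite F] [Finite G] [Finite ι] (h : T3 hG N κ s Ω x₁ x r g)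
    (hN : NoN Ω N) (h2 : G2 g)
    (zn9 : ∀ {c : V8 F ≃ₗ[F] V8 F}, c ∈ AutD (fG s) → ∀ {l : ℕ}, l.Prime → l ≠ 3 →
      (l ∣ Nat.card F ^ 2 + Nat.card F + 1 ∨ l ∣ Nat.card F ^ 2 - Nat.card F + 1) → c ^ l = 1 → c = 1)
    {q0 : ℕ} (hq0 : 2 ≤ q0) (hq : Nat.card F = q0 ^ 3)
    (zn4 : ∀ {c : V8 F ≃ₗ[F] V8 F}, c ∈ AutD (fG s) → ∀ {l : ℕ}, l.Prime → l ≠ 2 → l ∣ q0 ^ 2 + 1 → c ^ l = 1 → c = 1) :
    False := by
  obtain ⟨n, hn, hc⟩ := h2
  have hcard : 2 ≤ Nat.card F := by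
    rw [hq]
    calc 2 ≤ q0 := hq0
      _ ≤ q0 ^ 3 := Nat.le_self_pow (by norm_num) q0
  rcases hn with rfl | rfl | rfl
  · obtain ⟨l, hl, hl2, hl3, hln⟩ := exists_prime_ne (n := Nat.card F ^ 2 + Nat.card F + 1) (by nlinarith)
      odd_nine.1 odd_nine.2
    obtain ⟨c, hcE, hcl, hc1, hcc⟩ := hc l hl hl2 hl3 hln
    obtain ⟨c', hc', hcl', hc1'⟩ := h.exists_order hN hl hl2 hcE hcl hc1 hcc
    exact hc1' (zn9 hc' hl hl3 (Or.inl hln) hcl')
  · have h8 : 8 ≤ Nat.card F := by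
      rw [hq]
      calc 8 = 2 ^ 3 := by norm_num
        _ ≤ q0 ^ 3 := Nat.pow_le_pow_left hq0 3
    have h3 : 3 < Nat.card F ^ 2 - Nat.card F + 1 := by
      have : Nat.card F ^ 2 ≥ 8 * Nat.card F := by nlinarith
      omega
    obtain ⟨l, hl, hl2, hl3, hln⟩ := exists_prime_ne h3 (odd_nine' (by omega)).1 (odd_nine' (by omega)).2
    obtain ⟨c, hcE, hcl, hc1, hcc⟩ := hc l hl hl2 hl3 hln
    obtain ⟨c', hc', hcl', hc1'⟩ := h.exists_order hN hl hl2 hcE hcl hc1 hcc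
    exact hc1' (zn9 hc' hl hl3 (Or.inr hln) hcl')
  · obtain ⟨l, hl, hl2, hl3, hln⟩ := exists_prime_four hq0
    have hln' : l ∣ Nat.card F ^ 2 + 1 := by
      refine hln.trans ⟨q0 ^ 4 - q0 ^ 2 + 1, ?_⟩
      rw [hq]
      have h4 : q0 ^ 2 ≤ q0 ^ 4 := Nat.pow_le_pow_right (by omega) (by norm_num)
      zify [h4]
      ring
    obtain ⟨c, hcE, hcl, hc1, hcc⟩ := hc l hl hl2 hl3 hln'
    obtain ⟨c', hc', hcl', hc1'⟩ := h.exists_order hN hl hl2 hcE hcl hc1 hcc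
    exact hc1' (zn4 hc' hl hl2 hln hcl')

/-- an element of order `p` of `E Q` commuting with the `g i`, all `r i ≠ p` -/
theorem dead_G0 [Finite F] [Finite G] [Finite ι] [Nonempty Ω] {p : ℕ} [CharP F p] (h : T3 hG N κ s Ω x₁ x r g)
    (hN : NoN Ω N) (hrp : ∀ i, r i ≠ p) {c : V8 F ≃ₗ[F] V8 F} (hcE : c ∈ E (plusForm 4 F)) (hcp : c ^ p = 1)
    (hc1 : c ≠ 1) (hcc : ∀ i, c * g i = g i * c) : False :=
  dead_opg h hN hrp
    (exists_opg (CharP.char_is_prime F p) hG (fun i => (h.mem i).1) h.prime hrp h.pow h.comm hcE hcp hc1 hcc)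
    fun X Y c hc hX hY => Cfsg.Agent.H499.RC.ZU2 h.cube h.ne X Y c hc hX hY

/-- `G2` -/
theorem dead_G2 [Finite F] [Finite G] [Finite ι] [Nonempty Ω] (h : T3 hG N κ s Ω x₁ x r g)
    (hN : NoN Ω N) (h2 : G2 g) : False := by
  obtain ⟨q0, hq0, hq, -, -, -⟩ := Cfsg.Agent.H256.RC.BQ h.cube h.ne
  exact dead_G2_of h hN h2 (fun hc _ hl hl3 h1 hcl => Cfsg.Agent.H393.TZ.ZN9 h.cube h.ne hc hl hl3 h1 hcl) hq0 hq
    (fun hc _ hl hl2 h1 hcl => Cfsg.Agent.H256.RC.ZN4 h.cube h.ne hq hc hl hl2 h1 hcl)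

end env

end Cfsg.Agent.H864.RC
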